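import Mathlib
import Cfsg.Agent.Lib.CycSyl.Hyp
import Cfsg.Agent.Lib.Involutions.Dihedral
import Cfsg.Agent.Lib.Coprime.Generation
import Cfsg.Agent.Lib.Coprime.Action
import Cfsg.Agent.Lib.ZStar.Fus
import Cfsg.Agent.Lib.ZStar.CI
import Cfsg.Agent.S3303
import Cfsg.Agent.S0215

/-!
# A minimal counterexample to the main theorem: first properties
-/

set_option autoImplicit false
set_option linter.unusedSectionVars false
set_option linter.style.haveILetI false

namespace Cfsg.Agent.Lib.CycSyl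

open Subgroup Cfsg Cfsg.Agent.Lib.InvolChar.Basic

universe u

section
variable {G : Type u} [Group G] [Finite G]

/-- A minimal counterexample. -/
structure Crit (C : Subgroup G) : Prop where
  hyp : Hyp C
  hC : C.Normal
  ns : ¬ Group.IsSolvable G
  sub : ∀ H : Subgroup G, H ≠ ⊤ → ¬ H ≤ C → Group.IsSolvable H
  nor : ∀ Y : Subgroup G, Y.Normal → Y ≤ C → Group.IsSolvable Y → Y = ⊥
  ft : FT.{u}

variable {C : Subgroup G}

theorem Crit.core_eq_bot (h : Crit C) : pPrimeCore 2 G = ⊥ := by
  apply h.nor _ (Cfsg.pPrimeCore_normal 2 G)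
  · intro x hx
    apply h.hyp.mem_of_odd
    exact Nat.coprime_two_right.1 (Cfsg.Agent.Lib.Core.Basic.orderOf_coprime_of_mem_pPrimeCore hx)
  · exact h.ft _ Cfsg.Agent.Lib.ZStar.Cor.odd_card_core

theorem Crit.exists_ne (h : Crit C) (S : Sylow 2 G) : ∃ T : Sylow 2 G, T ≠ S := by
  by_contra hcon
  push Not at hcon
  haveI : Subsingleton (Sylow 2 G) := ⟨fun a b => (hcon a).trans (hcon b).symm⟩
  exact h.ns (solvable_of_normal_sylow h.ft S (Sylow.normal_of_subsingleton S))

theorem Crit.central_eq_one (h : Crit C) {u : G} (hu2 : u ^ 2 = 1) (hc : ∀ g : G, g * u = u * g) :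
    u = 1 := by
  classical
  haveI : Fact (Nat.Prime 2) := ⟨Nat.prime_two⟩
  have hn : (zpowers u).Normal := by
    constructor
    rintro _ ⟨i, rfl⟩ g
    refine ⟨i, ?_⟩
    simp only
    rw [← conj_zpow]
    have : g * u * g⁻¹ = u := by rw [hc g]; group
    rw [this]
  have hp : IsPGroup 2 (zpowers u) := by
    intro y
    obtain ⟨y, i, rfl⟩ := y
    refine ⟨1, Subtype.ext ?_⟩
    simp only [Subgroup.coe_pow, pow_one, Subgroup.coe_one]
    show (u ^ i) ^ 2 = 1
    rw [← zpow_natCast, ← zpow_mul, mul_comm, zpow_mul]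
    simp [hu2]
  have hle : ∀ S : Sylow 2 G, u ∈ (S : Subgroup G) := fun S =>
    Cfsg.Agent.Lib.Core.Basic.pCore_le_sylow S
      (Cfsg.Agent.Lib.Core.Basic.le_pCore hn hp (mem_zpowers u))
  by_cases huC : u ∈ C
  · have h1 := h.nor (zpowers u) hn ((zpowers_le).2 huC) inferInstance
    rw [zpowers_eq_bot] at h1
    exact h1
  · exfalso
    obtain ⟨S⟩ : Nonempty (Sylow 2 G) := inferInstance
    obtain ⟨T, hT⟩ := h.exists_ne S
    exact hT (h.hyp.uniq u huC ⟨1, by simpa using hu2⟩ T S (hle T) (hle S))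

/-- No involution of `S` is fixed by `N_G(S)`. -/
theorem Crit.no_fixed (h : Crit C) (S : Sylow 2 G) {u : G} (hu : orderOf u = 2)
    (huS : u ∈ (S : Subgroup G)) (hM : ∀ m : G, m • S = S → m * u * m⁻¹ = u) : False := by
  classical
  haveI : Fact (Nat.Prime 2) := ⟨Nat.prime_two⟩
  have hiso : ∀ g : G, g * u * g⁻¹ ∈ S → g * u * g⁻¹ = u := by
    intro g hg
    obtain ⟨m, hm, hmg⟩ := exists_normalizer_conj h.hyp.cyc S huS hg
    rw [← hmg]
    exact hM m hm
  obtain ⟨N, hNn, hNodd, hN⟩ := Cfsg.Agent.S0215.result S u hu huS hiso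
  have hle : N ≤ pPrimeCore 2 G :=
    Cfsg.Agent.Lib.Core.Basic.le_pPrimeCore hNn (Nat.coprime_two_right.2 hNodd)
  rw [h.core_eq_bot, le_bot_iff] at hle
  have hu2 : u ^ 2 = 1 := by rw [← hu]; exact pow_orderOf_eq_one u
  have hc : ∀ g : G, g * u = u * g := by
    intro g
    have h1 := hN g
    rw [hle, Subgroup.mem_bot] at h1
    have h2 : u * g * u⁻¹ = g := by
      calc u * g * u⁻¹ = (u * g * u⁻¹ * g⁻¹) * g := by group
        _ = g := by rw [h1, one_mul]
    calc g * u = (u * g * u⁻¹) * u := by rw [h2]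
      _ = u * g := by group
  have h3 := h.central_eq_one hu2 hc
  rw [h3, orderOf_one] at hu
  omega

/-- A complement to `S` in its normalizer. -/
theorem exists_complement (S : Sylow 2 G) : ∃ H : Subgroup G, Odd (Nat.card H) ∧
    (∀ h ∈ H, h • S = S) ∧ (∀ m : G, m • S = S → ∃ s ∈ (S : Subgroup G), ∃ h ∈ H, m = s * h) := by
  classical
  haveI : Fact (Nat.Prime 2) := ⟨Nat.prime_two⟩
  let M : Subgroup G := normalizer ((S : Subgroup G) : Set G)
  let A : Subgroup M := (S : Subgroup G).subgroupOf M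
  haveI hAn : A.Normal := Subgroup.normal_in_normalizer
  have hAp : IsPGroup 2 A := S.2.comap_subtype
  have hidx : ¬ 2 ∣ A.index := by
    intro hd
    apply S.not_dvd_index
    have h1 := Subgroup.relIndex_mul_index (Subgroup.le_normalizer (H := (S : Subgroup G)))
    rw [← h1]
    exact Dvd.dvd.mul_right hd _
  have hcop : (Nat.card A).Coprime A.index := by
    obtain ⟨n, hn⟩ := IsPGroup.iff_card.1 hAp
    rw [hn]
    apply Nat.Coprime.pow_left
    exact (Nat.Prime.coprime_iff_not_dvd Nat.prime_two).2 hidx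
  obtain ⟨H₀, hH₀⟩ := Subgroup.exists_right_complement'_of_coprime hcop
  refine ⟨H₀.map M.subtype, ?_, ?_, ?_⟩
  · have h1 : Nat.card (H₀.map M.subtype) = Nat.card H₀ :=
      Nat.card_congr (Subgroup.equivMapOfInjective H₀ M.subtype M.subtype_injective).symm.toEquiv
    rw [h1, ← hH₀.symm.index_eq_card]
    exact Nat.odd_iff.2 (by omega)
  · rintro _ ⟨h, -, rfl⟩
    rw [Sylow.smul_eq_iff_mem_normalizer]
    exact h.2
  · intro m hm
    have hmM : m ∈ M := (Sylow.smul_eq_iff_mem_normalizer (g := m) (P := S)).1 hm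
    have h1 : (⟨m, hmM⟩ : M) ∈ A ⊔ H₀ := by rw [hH₀.sup_eq_top]; trivial
    obtain ⟨a, ha, b, hb, hab⟩ := Subgroup.mem_sup_of_normal_left.1 h1
    refine ⟨a, ha, b, ⟨b, hb, rfl⟩, ?_⟩
    have := congrArg Subtype.val hab
    simpa using this.symm

/-- A Klein four-group acting on a group of odd order. -/
theorem four_gen {a b : G} (ha : orderOf a = 2) (hb : orderOf b = 2) (hab : a * b = b * a)
    (hne : a ≠ b) (K W : Subgroup G) (hKodd : Odd (Nat.card K))
    (haK : a ∈ normalizer (K : Set G)) (hbK : b ∈ normalizer (K : Set G))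
    (h1 : K ⊓ centralizer {a} ≤ W) (h2 : K ⊓ centralizer {b} ≤ W)
    (h3 : K ⊓ centralizer {a * b} ≤ W) : K ≤ W := by
  classical
  haveI : Fact (Nat.Prime 2) := ⟨Nat.prime_two⟩
  have ha2 : a * a = 1 := by rw [← pow_two, ← ha]; exact pow_orderOf_eq_one a
  have hb2 : b * b = 1 := by rw [← pow_two, ← hb]; exact pow_orderOf_eq_one b
  have hia : a⁻¹ = a := inv_eq_of_mul_eq_one_left ha2
  have hib : b⁻¹ = b := inv_eq_of_mul_eq_one_left hb2
  let A : Subgroup G := {
    carrier := {x | x = 1 ∨ x = a ∨ x = b ∨ x = a * b}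
    one_mem' := Or.inl rfl
    mul_mem' := by
      intro x y hx hy
      simp only [Set.mem_setOf_eq] at hx hy ⊢
      have e1 : a * (a * b) = b := by rw [← mul_assoc, ha2, one_mul]
      have e2 : b * (a * b) = a := by rw [hab, ← mul_assoc, hb2, one_mul]
      have e3 : a * b * a = b := by rw [hab, mul_assoc, ha2, mul_one]
      have e4 : a * b * b = a := by rw [mul_assoc, hb2, mul_one]
      have e5 : a * b * (a * b) = 1 := by rw [← mul_assoc, e3, hb2]
      have e6 : b * a = a * b := hab.symm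
      rcases hx with hx | hx | hx | hx <;> rcases hy with hy | hy | hy | hy <;> rw [hx, hy] <;>
        simp only [mul_one, one_mul, ha2, hb2, e1, e2, e3, e4, e5, e6, true_or, or_true]
    inv_mem' := by
      rintro x (rfl | rfl | rfl | rfl)
      · simp
      · simp [hia]
      · simp [hib]
      · simp [hia, hib, hab] }
  have hA : ∀ x ∈ A, x = 1 ∨ x = a ∨ x = b ∨ x = a * b := fun x hx => hx
  have haA : a ∈ A := Or.inr (Or.inl rfl)
  have hbA : b ∈ A := Or.inr (Or.inr (Or.inl rfl))
  have habA : a * b ∈ A := Or.inr (Or.inr (Or.inr rfl))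
  haveI : IsMulCommutative A := by
    constructor
    constructor
    rintro ⟨x, hx⟩ ⟨y, hy⟩
    apply Subtype.ext
    show x * y = y * x
    have e3 : a * (a * b) = a * b * a := by
      rw [← mul_assoc, ha2, one_mul, hab, mul_assoc, ha2, mul_one]
    have e4 : b * (a * b) = a * b * b := by
      rw [mul_assoc, hb2, mul_one, hab, ← mul_assoc, hb2, one_mul]
    rcases hA x hx with h | h | h | h <;> rcases hA y hy with h' | h' | h' | h' <;> rw [h, h'] <;>
      first
      | rfl
      | simp only [one_mul, mul_one]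
      | exact hab
      | exact hab.symm
      | exact e3
      | exact e3.symm
      | exact e4
      | exact e4.symm
  have hAnc : ¬ IsCyclic A := by
    intro hc
    have h4 := Cfsg.Agent.Lib.ZStar.CI.eq_of_cyclic (X := A) (a := ⟨a, haA⟩) (b := ⟨b, hbA⟩)
      (by rw [Subgroup.orderOf_mk]; exact ha) (by rw [Subgroup.orderOf_mk]; exact hb)
    exact hne (congrArg Subtype.val h4)
  have hAK : A ≤ normalizer (K : Set G) := by
    intro x hx
    rcases hA x hx with h | h | h | h <;> rw [h]
    · exact one_mem _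
    · exact haK
    · exact hbK
    · exact mul_mem haK hbK
  have hAp : IsPGroup 2 A := by
    intro y
    refine ⟨1, Subtype.ext ?_⟩
    obtain ⟨x, hx⟩ := y
    simp only [pow_one, Subgroup.coe_pow, Subgroup.coe_one]
    rcases hA x hx with h | h | h | h <;> rw [h]
    · simp
    · rw [pow_two, ha2]
    · rw [pow_two, hb2]
    · have e : a * b * (a * b) = 1 := by
        rw [← mul_assoc, mul_assoc a b a, ← hab, ← mul_assoc, ha2, one_mul, hb2]
      rw [pow_two, e]
  have hcop : (Nat.card A).Coprime (Nat.card K) := by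
    obtain ⟨n, hn⟩ := IsPGroup.iff_card.1 hAp
    rw [hn]
    exact Nat.Coprime.pow_left n (Nat.coprime_two_left.2 hKodd)
  have hgen := Cfsg.Agent.Lib.Coprime.Generation.iSup_centralizer_eq hAnc hAK hcop
  rw [← hgen]
  apply iSup₂_le
  rintro x ⟨hx, hx1⟩
  rcases hA x hx with h | h | h | h
  · exact absurd h hx1
  · rw [h]; exact h1
  · rw [h]; exact h2
  · rw [h]; exact h3

end

end Cfsg.Agent.Lib.CycSyl
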