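import Mathlib
import Cfsg.Agent.Lib.CycSyl.Crit

/-!
# The main theorem on Sylow `2`-subgroups with cyclic pairwise intersections
-/

set_option autoImplicit false
set_option linter.unusedSectionVars false
set_option linter.style.haveILetI false

namespace Cfsg.Agent.Lib.CycSyl

open Subgroup Cfsg Cfsg.Agent.Lib.InvolChar.Basic

universe u

section
variable {G : Type u} [Group G] [Finite G]
variable {C : Subgroup G}

/-- A fixed point of the complement outside `C`. -/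
theorem Crit.exists_fixed (h : Crit C) (S : Sylow 2 G) {H : Subgroup G} (hHodd : Odd (Nat.card H))
    (hHS : ∀ h ∈ H, h • S = S) : ∃ x ∈ (S : Subgroup G), x ∉ C ∧ ∀ h ∈ H, h * x = x * h := by
  classical
  haveI : Fact (Nat.Prime 2) := ⟨Nat.prime_two⟩
  haveI hCn := h.hC
  obtain ⟨s₀, hs₀, hs₀C⟩ := h.hyp.exists_not_mem S
  have hAK : H ≤ normalizer ((S : Subgroup G) : Set G) := fun a ha =>
    (Sylow.smul_eq_iff_mem_normalizer (g := a) (P := S)).1 (hHS a ha)
  have hcop : (Nat.card H).Coprime (Nat.card (S : Subgroup G)) := by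
    obtain ⟨n, hn⟩ := IsPGroup.iff_card.1 S.2
    rw [hn]
    exact (Nat.Coprime.pow_left n (Nat.coprime_two_left.2 hHodd)).symm
  haveI : Group.IsNilpotent (S : Subgroup G) := S.2.isNilpotent
  have hsolv : Group.IsSolvable H ∨ Group.IsSolvable (S : Subgroup G) := Or.inr inferInstance
  have hnorm : ∀ g ∈ normalizer ((S : Subgroup G) : Set G),
      g ∈ normalizer (((S : Subgroup G) ⊓ C : Subgroup G) : Set G) := by
    intro g hg
    rw [Subgroup.mem_normalizer_iff] at hg ⊢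
    intro k
    constructor
    · rintro ⟨h1, h2⟩
      exact ⟨(hg k).1 h1, hCn.conj_mem k h2 g⟩
    · rintro ⟨h1, h2⟩
      refine ⟨(hg k).2 h1, ?_⟩
      have := hCn.conj_mem _ h2 g⁻¹
      simpa [mul_assoc] using this
  have hSN : (S : Subgroup G) ≤ normalizer ((S : Subgroup G) : Set G) := Subgroup.le_normalizer
  obtain ⟨x, ⟨hxS, hxH⟩, hx⟩ := Cfsg.Agent.Lib.Coprime.Action.exists_fixed_of_fixed_mod
    ((S : Subgroup G) ⊓ C) hAK hcop hsolv inf_le_left (fun s hs => hnorm s (hSN hs))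
    (fun a ha => hnorm a (hAK ha)) hs₀ (by
      intro a ha
      have haC : a ∈ C := by
        apply h.hyp.mem_of_odd
        exact Odd.of_dvd_nat hHodd (Subgroup.orderOf_dvd_natCard H ha)
      refine Subgroup.mem_inf.2 ⟨(S : Subgroup G).mul_mem
        ((Subgroup.mem_normalizer_iff.1 (hAK ha) s₀).1 hs₀) ((S : Subgroup G).inv_mem hs₀), ?_⟩
      have e : a * s₀ * a⁻¹ * s₀⁻¹ = a * (s₀ * a⁻¹ * s₀⁻¹) := by group
      rw [e]
      exact C.mul_mem haC (hCn.conj_mem _ (C.inv_mem haC) s₀))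
  refine ⟨x, hxS, ?_, fun a ha => Subgroup.mem_centralizer_iff.1 hxH a ha⟩
  intro hxC
  apply hs₀C
  have e : s₀ = x * (s₀⁻¹ * x)⁻¹ := by group
  rw [e]
  exact mul_mem hxC (inv_mem hx.2)

/-- Two distinct commuting involutions fixed by `o` force `o` to normalize `S`. -/
theorem smul_eq_self_of_two (hc : CycInt G) (S : Sylow 2 G) {a f o : G} (ha : a ∈ (S : Subgroup G))
    (hf : f ∈ (S : Subgroup G)) (hao : orderOf a = 2) (hfo : orderOf f = 2) (hne : a ≠ f)
    (h1 : o * a = a * o) (h2 : o * f = f * o) : o • S = S := by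
  by_contra hne'
  haveI := hc S (o • S) (Ne.symm hne')
  have hmem : ∀ b : G, b ∈ (S : Subgroup G) → o * b = b * o → b ∈ ((o • S : Sylow 2 G) : Subgroup G) := by
    intro b hb hob
    rw [mem_smul_sylow]
    have : o⁻¹ * b * o = b := by
      calc o⁻¹ * b * o = o⁻¹ * (b * o) := by group
        _ = o⁻¹ * (o * b) := by rw [hob]
        _ = b := by group
    rw [this]
    exact hb
  have h4 := Cfsg.Agent.Lib.ZStar.CI.eq_of_cyclic
    (X := ↥((S : Subgroup G) ⊓ ((o • S : Sylow 2 G) : Subgroup G)))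
    (a := ⟨a, Subgroup.mem_inf.2 ⟨ha, hmem a ha h1⟩⟩) (b := ⟨f, Subgroup.mem_inf.2 ⟨hf, hmem f hf h2⟩⟩)
    (by rw [Subgroup.orderOf_mk]; exact hao) (by rw [Subgroup.orderOf_mk]; exact hfo)
  exact hne (congrArg Subtype.val h4)

/-- The Sylow subgroups containing `a` form one orbit under `O(C_G(a))`. -/
theorem Crit.fix_orbit (h : Crit C) (S : Sylow 2 G) {x a : G} (hxS : x ∈ (S : Subgroup G))
    (hxC : x ∉ C) (hax : a * x = x * a) (ha : ¬ ∀ g : G, g * a = a * g) (haS : a ∈ (S : Subgroup G))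
    (T : Sylow 2 G) (haT : a ∈ (T : Subgroup G)) :
    ∃ o : centralizer ({a} : Set G), o ∈ pPrimeCore 2 (centralizer ({a} : Set G)) ∧
      T = (o : G) • S := by
  classical
  haveI : Fact (Nat.Prime 2) := ⟨Nat.prime_two⟩
  haveI hCn := h.hC
  set Y : Subgroup G := centralizer ({a} : Set G) with hY
  have hmemY : ∀ g : G, g ∈ Y ↔ g * a = a * g := fun g => Subgroup.mem_centralizer_singleton_iff
  have hYne : Y ≠ ⊤ := by
    intro htop
    apply ha
    intro g
    exact (hmemY g).1 (by rw [htop]; trivial)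
  have hxY : x ∈ Y := (hmemY x).2 hax.symm
  have hYC : ¬ Y ≤ C := fun hle => hxC (hle hxY)
  have hYs := h.sub Y hYne hYC
  obtain ⟨P, hP⟩ := Cfsg.Agent.S3303.result hYs (cycInt_subgroup h.hyp.cyc Y)
  obtain ⟨y, hya, hyS⟩ := exists_comm_smul h.hyp.cyc S T haS haT
  have hyY : y ∈ Y := (hmemY y).2 hya
  let xY : Y := ⟨x, hxY⟩
  let yY : Y := ⟨y, hyY⟩
  obtain ⟨k, hk⟩ := (IsPGroup.iff_orderOf.1 S.2) ⟨x, hxS⟩
  have hxk : orderOf x = 2 ^ k := by simpa using hk
  have hx2 : ∃ k : ℕ, x ^ (2 ^ k) = 1 := ⟨k, by rw [← hxk]; exact pow_orderOf_eq_one x⟩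
  have hpx : IsPGroup 2 (zpowers xY) := by
    apply IsPGroup.of_card (n := k)
    rw [Nat.card_zpowers, ← hxk]
    exact Subgroup.orderOf_mk x hxY
  obtain ⟨A₁, hA₁⟩ := hpx.exists_le_sylow
  have hxA₁ : xY ∈ (A₁ : Subgroup Y) := hA₁ (mem_zpowers xY)
  obtain ⟨T₁, hT₁⟩ := exists_sylow_of_subgroup Y A₁
  have hT₁S : T₁ = S := h.hyp.uniq x hxC hx2 T₁ S (hT₁ xY hxA₁) hxS
  rw [hT₁S] at hT₁
  let A₂ : Sylow 2 Y := yY • A₁
  have hA₂T : ∀ q : Y, q ∈ (A₂ : Subgroup Y) → (q : G) ∈ (T : Subgroup G) := by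
    intro q hq
    have h1 := (mem_smul_sylow A₁ yY q).1 hq
    have h2 := hT₁ _ h1
    rw [← hyS, mem_smul_sylow]
    simpa using h2
  haveI : Finite (Sylow 2 (Y ⧸ pPrimeCore 2 Y)) := inferInstance
  have hsurj := QuotientGroup.mk'_surjective (pPrimeCore 2 Y)
  have hm : ∀ q ∈ (A₁ : Subgroup Y), QuotientGroup.mk' (pPrimeCore 2 Y) q ∈
      (A₂ : Subgroup Y).map (QuotientGroup.mk' (pPrimeCore 2 Y)) := by
    intro q hq
    haveI hu : Unique (Sylow 2 (Y ⧸ pPrimeCore 2 Y)) := Sylow.unique_of_normal P hP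
    have he : A₁.mapSurjective hsurj = A₂.mapSurjective hsurj := Subsingleton.elim _ _
    have he' := congrArg (fun W : Sylow 2 (Y ⧸ pPrimeCore 2 Y) => (W : Subgroup (Y ⧸ pPrimeCore 2 Y))) he
    simp only [Sylow.coe_mapSurjective] at he'
    rw [← he']
    exact ⟨q, hq, rfl⟩
  obtain ⟨o, ho, hoA⟩ := Cfsg.Agent.Lib.ZStar.Fus.exists_conj_into_of_map A₂ A₁.2 hm
  refine ⟨o, ho, ?_⟩
  set z : G := (o : G) * x * (o : G)⁻¹ with hz
  have hzT : z ∈ (T : Subgroup G) := hA₂T _ (hoA xY hxA₁)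
  have hzo : z ∈ (((o : G) • S : Sylow 2 G) : Subgroup G) := by
    rw [mem_smul_sylow, hz]
    have : (o : G)⁻¹ * ((o : G) * x * (o : G)⁻¹) * (o : G) = x := by group
    rw [this]
    exact hxS
  have hzC : z ∉ C := by
    intro hzC
    apply hxC
    have := hCn.conj_mem z hzC (o : G)⁻¹
    have e : (o : G)⁻¹ * z * (o : G)⁻¹⁻¹ = x := by rw [hz]; group
    rwa [e] at this
  have hz2 : ∃ k : ℕ, z ^ (2 ^ k) = 1 := by
    refine ⟨k, ?_⟩
    rw [hz, conj_pow, ← hxk, pow_orderOf_eq_one]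
    group
  exact h.hyp.uniq z hzC hz2 T _ hzT hzo

end

end Cfsg.Agent.Lib.CycSyl
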