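import Mathlib
import Cfsg.Agent.Lib.CycSyl.Main
import Cfsg.Agent.Lib.PGroups.Basic
import Cfsg.Agent.Lib.ZStar.Cor
import Cfsg.Agent.Lib.ZStar.Main

/-!
# The final contradiction
-/

set_option autoImplicit false
set_option linter.unusedSectionVars false
set_option linter.style.haveILetI false

namespace Cfsg.Agent.Lib.CycSyl

open Subgroup Cfsg Cfsg.Agent.Lib.InvolChar.Basic

universe u

section
variable {G : Type u} [Group G] [Finite G]
variable {C : Subgroup G}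

/-- The data of the final argument. -/
structure D (C : Subgroup G) (S : Sylow 2 G) (H : Subgroup G) (x c : G) : Prop where
  crit : Crit C
  hHS : ∀ h ∈ H, h • S = S
  dec : ∀ m : G, m • S = S → ∃ s ∈ (S : Subgroup G), ∃ h ∈ H, m = s * h
  xS : x ∈ (S : Subgroup G)
  xC : x ∉ C
  cS : c ∈ (S : Subgroup G)
  co : orderOf c = 2
  cx : c * x = x * c
  cH : ∀ h ∈ H, h * c = c * h

/-- Central involutions of `S`. -/
def Inv (S : Sylow 2 G) (u : G) : Prop :=
  u ∈ (S : Subgroup G) ∧ orderOf u = 2 ∧ ∀ s ∈ (S : Subgroup G), s * u = u * s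

variable {S : Sylow 2 G} {H : Subgroup G} {x c : G}

theorem sq_eq_one {u : G} (hu : orderOf u = 2) : u * u = 1 := by
  rw [← pow_two, ← hu]; exact pow_orderOf_eq_one u

theorem D.fixed_of_central (h : D C S H x c) {u : G} (hu : Inv S u) (hH : ∀ t ∈ H, t * u = u * t) :
    False := by
  apply h.crit.no_fixed S hu.2.1 hu.1
  intro m hm
  obtain ⟨s, hs, t, ht, rfl⟩ := h.dec m hm
  calc s * t * u * (s * t)⁻¹ = s * (t * u) * t⁻¹ * s⁻¹ := by group
    _ = s * (u * t) * t⁻¹ * s⁻¹ := by rw [hH t ht]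
    _ = (s * u) * s⁻¹ := by group
    _ = (u * s) * s⁻¹ := by rw [hu.2.2 s hs]
    _ = u := by group

theorem D.c_not_central (h : D C S H x c) : ¬ ∀ s ∈ (S : Subgroup G), s * c = c * s :=
  fun hc => h.fixed_of_central ⟨h.cS, h.co, hc⟩ h.cH

theorem D.c_ne_inv (h : D C S H x c) {u : G} (hu : Inv S u) : c ≠ u := by
  rintro rfl
  exact h.c_not_central hu.2.2

theorem D.exists_inv (h : D C S H x c) : ∃ u, Inv S u := by
  haveI : Fact (Nat.Prime 2) := ⟨Nat.prime_two⟩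
  have hne : (⊤ : Subgroup (S : Subgroup G)) ≠ ⊥ := by
    intro hb
    have h1 : (⟨c, h.cS⟩ : (S : Subgroup G)) ∈ (⊥ : Subgroup (S : Subgroup G)) := by
      rw [← hb]; trivial
    rw [Subgroup.mem_bot] at h1
    have h2 : c = 1 := congrArg Subtype.val h1
    have h3 := h.co
    rw [h2, orderOf_one] at h3
    omega
  obtain ⟨z, -, hz, hzo⟩ := Cfsg.Agent.Lib.PGroups.Basic.exists_central_orderOf_eq S.2 ⊤ hne
  refine ⟨z, z.2, (Subgroup.orderOf_coe z).trans hzo, ?_⟩
  intro s hs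
  have := Subgroup.mem_center_iff.1 hz ⟨s, hs⟩
  exact congrArg Subtype.val this

theorem D.conj_inv (h : D C S H x c) {u t : G} (hu : Inv S u) (ht : t ∈ H) : Inv S (t * u * t⁻¹) := by
  have hSS : ∀ a ∈ (S : Subgroup G), t * a * t⁻¹ ∈ (S : Subgroup G) := by
    intro a ha
    have h1 := h.hHS t ht
    have h2 : t * a * t⁻¹ ∈ ((t • S : Sylow 2 G) : Subgroup G) := by
      rw [mem_smul_sylow]
      have : t⁻¹ * (t * a * t⁻¹) * t = a := by group
      rw [this]; exact ha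
    rwa [h1] at h2
  have hSS' : ∀ a ∈ (S : Subgroup G), t⁻¹ * a * t ∈ (S : Subgroup G) := by
    intro a ha
    have h1 := h.hHS t ht
    have h2 : a ∈ ((t • S : Sylow 2 G) : Subgroup G) := by rw [h1]; exact ha
    exact (mem_smul_sylow S t a).1 h2
  refine ⟨hSS u hu.1, ?_, ?_⟩
  · rw [← hu.2.1]
    simpa using (MulAut.conj t).orderOf_eq u
  · intro s hs
    have h3 := hu.2.2 _ (hSS' s hs)
    calc s * (t * u * t⁻¹) = t * ((t⁻¹ * s * t) * u) * t⁻¹ := by group
      _ = t * (u * (t⁻¹ * s * t)) * t⁻¹ := by rw [h3]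
      _ = t * u * t⁻¹ * s := by group

theorem D.exists_other (h : D C S H x c) {u : G} (hu : Inv S u) : ∃ u', Inv S u' ∧ u' ≠ u := by
  by_contra hcon
  push Not at hcon
  apply h.fixed_of_central hu
  intro t ht
  have h1 := hcon _ (h.conj_inv hu ht)
  calc t * u = (t * u * t⁻¹) * t := by group
    _ = u * t := by rw [h1]

theorem Inv.mul {u u' : G} (hu : Inv S u) (hu' : Inv S u') (hne : u' ≠ u) : Inv S (u' * u) := by
  refine ⟨mul_mem hu'.1 hu.1, ?_, ?_⟩
  · haveI : Fact (Nat.Prime 2) := ⟨Nat.prime_two⟩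
    have hc : u * u' = u' * u := hu'.2.2 u hu.1
    apply orderOf_eq_prime
    · rw [pow_two]
      calc u' * u * (u' * u) = u' * (u * u') * u := by group
        _ = u' * (u' * u) * u := by rw [hc]
        _ = (u' * u') * (u * u) := by group
        _ = 1 := by rw [sq_eq_one hu.2.1, sq_eq_one hu'.2.1, one_mul]
    · intro h1
      apply hne
      have h2 : u' = u⁻¹ := eq_inv_of_mul_eq_one_left h1
      rw [h2, inv_eq_of_mul_eq_one_left (sq_eq_one hu.2.1)]
  · intro s hs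
    calc s * (u' * u) = (s * u') * u := by group
      _ = (u' * s) * u := by rw [hu'.2.2 s hs]
      _ = u' * (s * u) := by group
      _ = u' * (u * s) := by rw [hu.2.2 s hs]
      _ = u' * u * s := by group

/-- Conjugates of `c` inside `S` are `S`-conjugates. -/
theorem D.conj_to_S (h : D C S H x c) {g : G} (hg : g * c * g⁻¹ ∈ (S : Subgroup G)) :
    ∃ s ∈ (S : Subgroup G), s * c * s⁻¹ = g * c * g⁻¹ := by
  obtain ⟨m, hm, hmg⟩ := exists_normalizer_conj h.crit.hyp.cyc S h.cS hg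
  obtain ⟨s, hs, t, ht, rfl⟩ := h.dec m hm
  refine ⟨s, hs, ?_⟩
  rw [← hmg]
  calc s * c * s⁻¹ = s * ((c * t) * t⁻¹) * s⁻¹ := by group
    _ = s * ((t * c) * t⁻¹) * s⁻¹ := by rw [h.cH t ht]
    _ = s * t * c * (s * t)⁻¹ := by group

/-- The core of a centralizer, as a subgroup of `G`. -/
noncomputable def K (a : G) : Subgroup G :=
  (pPrimeCore 2 (centralizer ({a} : Set G))).map (centralizer ({a} : Set G)).subtype

theorem K_odd (a : G) : Odd (Nat.card (K a)) := by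
  have h1 : Nat.card (K a) = Nat.card (pPrimeCore 2 (centralizer ({a} : Set G))) :=
    Nat.card_congr (Subgroup.equivMapOfInjective _ _ (Subgroup.subtype_injective _)).symm.toEquiv
  rw [h1]
  exact Cfsg.Agent.Lib.ZStar.Cor.odd_card_core

theorem K_comm {a o : G} (ho : o ∈ K a) : o * a = a * o := by
  obtain ⟨o', -, rfl⟩ := ho
  exact Subgroup.mem_centralizer_singleton_iff.1 o'.2

theorem K_norm {a y : G} (hy : y * a = a * y) : y ∈ normalizer ((K a : Subgroup G) : Set G) := by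
  have hyY : y ∈ centralizer ({a} : Set G) := Subgroup.mem_centralizer_singleton_iff.2 hy
  have hn : (pPrimeCore 2 (centralizer ({a} : Set G))).Normal := Cfsg.pPrimeCore_normal 2 _
  rw [Subgroup.mem_normalizer_iff]
  intro k
  constructor
  · rintro ⟨k', hk', rfl⟩
    exact ⟨⟨y, hyY⟩ * k' * ⟨y, hyY⟩⁻¹, hn.conj_mem k' hk' _, by simp⟩
  · rintro ⟨k', hk', hk⟩
    have hkY : k ∈ centralizer ({a} : Set G) := by
      have h1 : y * k * y⁻¹ ∈ centralizer ({a} : Set G) := by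
        rw [← hk]; exact k'.2
      have h2 := mul_mem (mul_mem (inv_mem hyY) h1) hyY
      have e : y⁻¹ * (y * k * y⁻¹) * y = k := by group
      rwa [e] at h2
    refine ⟨⟨k, hkY⟩, ?_, rfl⟩
    have h3 := hn.conj_mem k' hk' ⟨y, hyY⟩⁻¹
    have e : (⟨y, hyY⟩⁻¹ : centralizer ({a} : Set G)) * k' * (⟨y, hyY⟩⁻¹)⁻¹ = ⟨k, hkY⟩ := by
      apply Subtype.ext
      have hk2 : (k' : G) = y * k * y⁻¹ := by simpa using hk
      simp only [Subgroup.coe_mul, InvMemClass.coe_inv, hk2]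
      group
    rwa [e] at h3

/-- `c` lies in a unique Sylow `2`-subgroup. -/
theorem D.fix_c (h : D C S H x c) (T : Sylow 2 G) (hT : c ∈ (T : Subgroup G)) : T = S := by
  classical
  have hcc : ¬ ∀ g : G, g * c = c * g := fun hg => h.c_not_central (fun s _ => hg s)
  obtain ⟨o, ho, rfl⟩ := h.crit.fix_orbit S h.xS h.xC h.cx hcc h.cS T hT
  obtain ⟨u, hu⟩ := h.exists_inv
  obtain ⟨u', hu', hne⟩ := h.exists_other hu
  have hcomm : ∀ {v : G}, Inv S v → c * v = v * c := fun hv => (hv.2.2 c h.cS)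
  have hle : ∀ {v : G}, Inv S v → K c ⊓ centralizer {v} ≤ normalizer ((S : Subgroup G) : Set G) := by
    intro v hv y hy
    refine (Sylow.smul_eq_iff_mem_normalizer (g := y) (P := S)).1 ?_
    exact smul_eq_self_of_two h.crit.hyp.cyc S h.cS hv.1 h.co hv.2.1 (h.c_ne_inv hv)
      (K_comm hy.1) (Subgroup.mem_centralizer_singleton_iff.1 hy.2)
  have huu : u * u' = u' * u := (hu'.2.2 u hu.1)
  have hgen := four_gen hu.2.1 hu'.2.1 huu (Ne.symm hne) (K c) _ (K_odd c)
    (K_norm (hcomm hu).symm) (K_norm (hcomm hu').symm) (hle hu) (hle hu') (hle (Inv.mul hu' hu (Ne.symm hne)))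
  have h1 : (o : G) ∈ K c := ⟨o, ho, rfl⟩
  exact (Sylow.smul_eq_iff_mem_normalizer (g := (o : G)) (P := S)).2 (hgen h1)

/-- A central involution of `S` lies in a unique Sylow `2`-subgroup. -/
theorem D.fix_u (h : D C S H x c) {u : G} (hu : Inv S u) (T : Sylow 2 G) (hT : u ∈ (T : Subgroup G)) :
    T = S := by
  classical
  have huo : u ^ 2 = 1 := by rw [pow_two]; exact sq_eq_one hu.2.1
  have hcc : ¬ ∀ g : G, g * u = u * g := by
    intro hg
    have := h.crit.central_eq_one huo hg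
    have h3 := hu.2.1
    rw [this, orderOf_one] at h3
    omega
  have hux : u * x = x * u := (hu.2.2 x h.xS).symm
  obtain ⟨o, ho, rfl⟩ := h.crit.fix_orbit S h.xS h.xC hux hcc hu.1 T hT
  obtain ⟨u', hu', hne⟩ := h.exists_other hu
  -- elements of the core fixing an involution `f ≠ u` of `S`
  have hle : ∀ {f : G}, f ∈ (S : Subgroup G) → orderOf f = 2 → f ≠ u → ∀ y ∈ K u,
      y * f = f * y → y • S = S := by
    intro f hf hfo hfu y hy hyf
    exact smul_eq_self_of_two h.crit.hyp.cyc S hu.1 hf hu.2.1 hfo (Ne.symm hfu) (K_comm hy) hyf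
  -- such elements centralize `S`
  have hcent : ∀ y ∈ K u, y • S = S → ∀ s ∈ (S : Subgroup G), y * s = s * y := by
    intro y hy hyS s hs
    have hsY : s * u = u * s := hu.2.2 s hs
    have hyN := (Sylow.smul_eq_iff_mem_normalizer (g := y) (P := S)).1 hyS
    have h1 : y * s * y⁻¹ * s⁻¹ ∈ (S : Subgroup G) :=
      mul_mem ((Subgroup.mem_normalizer_iff.1 hyN s).1 hs) (inv_mem hs)
    have h2 : y * s * y⁻¹ * s⁻¹ ∈ K u := by
      have h3 := Subgroup.mem_normalizer_iff.1 (K_norm hsY) y⁻¹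
      have h4 := (h3).1 (inv_mem hy)
      have e : y * s * y⁻¹ * s⁻¹ = y * (s * y⁻¹ * s⁻¹) := by group
      rw [e]
      exact mul_mem hy h4
    have h5 : y * s * y⁻¹ * s⁻¹ = 1 := by
      set w := y * s * y⁻¹ * s⁻¹
      obtain ⟨k, hk⟩ := (IsPGroup.iff_orderOf.1 S.2) ⟨w, h1⟩
      have hk' : orderOf w = 2 ^ k := by simpa using hk
      have hd : orderOf w ∣ Nat.card (K u) := Subgroup.orderOf_dvd_natCard _ h2
      have hodd : Odd (orderOf w) := Odd.of_dvd_nat (K_odd u) hd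
      rw [hk'] at hodd
      rcases k with _ | k
      · rw [pow_zero] at hk'
        exact orderOf_eq_one_iff.1 hk'
      · exfalso
        have h6 : 2 ∣ 2 ^ (k + 1) := dvd_pow_self 2 (by omega)
        rw [Nat.odd_iff] at hodd
        omega
    calc y * s = (y * s * y⁻¹ * s⁻¹) * (s * y) := by group
      _ = s * y := by rw [h5, one_mul]
  have hcu' : c * u' = u' * c := (hu'.2.2 c h.cS)
  have hne' : c ≠ u' := h.c_ne_inv hu'
  obtain ⟨f, hf⟩ : ∃ f, f = c * u' := ⟨_, rfl⟩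
  have hfS : f ∈ (S : Subgroup G) := by rw [hf]; exact mul_mem h.cS hu'.1
  have hfo : orderOf f = 2 := by
    haveI : Fact (Nat.Prime 2) := ⟨Nat.prime_two⟩
    apply orderOf_eq_prime
    · rw [pow_two, hf]
      calc c * u' * (c * u') = c * (u' * c) * u' := by group
        _ = c * (c * u') * u' := by rw [hcu']
        _ = (c * c) * (u' * u') := by group
        _ = 1 := by rw [sq_eq_one h.co, sq_eq_one hu'.2.1, one_mul]
    · intro h1
      rw [hf] at h1
      apply hne'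
      have h2 : c = u'⁻¹ := eq_inv_of_mul_eq_one_left h1
      rw [h2, inv_eq_of_mul_eq_one_left (sq_eq_one hu'.2.1)]
  have hfu : f ≠ u := by
    intro hfu
    have h1 : c = u * u' := by
      have : c = f * u'⁻¹ := by rw [hf]; group
      rw [this, hfu, inv_eq_of_mul_eq_one_left (sq_eq_one hu'.2.1)]
    have h2 : Inv S c := by
      rw [h1]
      exact Inv.mul hu' hu (Ne.symm hne)
    exact h.c_ne_inv h2 rfl
  have hcY : c * u = u * c := (hu.2.2 c h.cS)
  have hu'Y : u' * u = u * u' := (hu.2.2 u' hu'.1)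
  have hgen := four_gen h.co hu'.2.1 hcu' hne' (K u) (centralizer ({f} : Set G)) (K_odd u)
    (K_norm hcY) (K_norm hu'Y)
    (by
      intro y hy
      rw [Subgroup.mem_centralizer_singleton_iff]
      exact hcent y hy.1 (hle h.cS h.co (h.c_ne_inv hu) y hy.1
        (Subgroup.mem_centralizer_singleton_iff.1 hy.2)) f hfS)
    (by
      intro y hy
      rw [Subgroup.mem_centralizer_singleton_iff]
      exact hcent y hy.1 (hle hu'.1 hu'.2.1 hne y hy.1
        (Subgroup.mem_centralizer_singleton_iff.1 hy.2)) f hfS)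
    (by rw [← hf]; exact fun y hy => hy.2)
  have h1 : (o : G) ∈ K u := ⟨o, ho, rfl⟩
  exact hle hfS hfo hfu _ h1 (Subgroup.mem_centralizer_singleton_iff.1 (hgen h1))

/-- A `2`-element inverted by an involution lies with it in a Sylow subgroup. -/
theorem exists_sylow_of_inverts {v w : G} (hv : v ^ 2 = 1) {a : ℕ} (hw : w ^ (2 ^ a) = 1)
    (hinv : v * w * v⁻¹ = w⁻¹) : ∃ T : Sylow 2 G, v ∈ (T : Subgroup G) ∧ w ∈ (T : Subgroup G) := by
  classical
  haveI : Fact (Nat.Prime 2) := ⟨Nat.prime_two⟩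
  have h1 : IsPGroup 2 (zpowers v) := by
    intro y
    obtain ⟨y, i, rfl⟩ := y
    refine ⟨1, Subtype.ext ?_⟩
    simp only [Subgroup.coe_pow, pow_one, Subgroup.coe_one]
    show (v ^ i) ^ 2 = 1
    rw [← zpow_natCast, ← zpow_mul, mul_comm, zpow_mul]
    simp [hv]
  have h2 : IsPGroup 2 (zpowers w) := by
    intro y
    obtain ⟨y, i, rfl⟩ := y
    refine ⟨a, Subtype.ext ?_⟩
    simp only [Subgroup.coe_pow, Subgroup.coe_one]
    show (w ^ i) ^ (2 ^ a) = 1
    rw [← zpow_natCast, ← zpow_mul, mul_comm, zpow_mul, zpow_natCast, hw, one_zpow]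
  have hnorm : zpowers v ≤ normalizer ((zpowers w : Subgroup G) : Set G) := by
    rw [Subgroup.zpowers_le, Subgroup.mem_normalizer_iff]
    have hv2 : v * v = 1 := by rw [← pow_two]; exact hv
    have hvi : v⁻¹ = v := inv_eq_of_mul_eq_one_left hv2
    intro k
    constructor
    · rintro ⟨i, rfl⟩
      refine ⟨-i, ?_⟩
      simp only
      rw [← conj_zpow, hinv]
      simp
    · rintro ⟨i, hi⟩
      refine ⟨-i, ?_⟩
      simp only at hi ⊢
      have h3 : k = v * (v * k * v⁻¹) * v⁻¹ := by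
        rw [hvi]
        calc k = (v * v) * k * (v * v) := by rw [hv2]; group
          _ = _ := by group
      rw [h3, ← hi, ← conj_zpow, hinv, zpow_neg, inv_zpow]
  have h3 := IsPGroup.to_sup_of_normal_right' h1 h2 hnorm
  obtain ⟨T, hT⟩ := h3.exists_le_sylow
  exact ⟨T, hT (Subgroup.mem_sup_left (mem_zpowers v)), hT (Subgroup.mem_sup_right (mem_zpowers w))⟩

/-- The key step: for `T ≠ S` and `v` a central involution of `S`, the involution `e` of `S ∩ T` has
`v e` conjugate to `c`. -/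
theorem D.key (h : D C S H x c) {T : Sylow 2 G} (hTS : T ≠ S) {g : G} (hg : g • S = T) {v : G}
    (hv : Inv S v) :
    ∃ e, e ∈ (S : Subgroup G) ∧ e ∈ (T : Subgroup G) ∧ orderOf e = 2 ∧
      ∃ s ∈ (S : Subgroup G), s * c * s⁻¹ = v * e := by
  classical
  haveI : Fact (Nat.Prime 2) := ⟨Nat.prime_two⟩
  obtain ⟨t, ht⟩ : ∃ t, t = g * c * g⁻¹ := ⟨_, rfl⟩
  have ht2 : t ^ 2 = 1 := by
    rw [ht, conj_pow, pow_two, sq_eq_one h.co]; group
  have htT : t ∈ (T : Subgroup G) := by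
    rw [← hg, mem_smul_sylow, ht]
    have : g⁻¹ * (g * c * g⁻¹) * g = c := by group
    rw [this]; exact h.cS
  have hfixt : ∀ T' : Sylow 2 G, t ∈ (T' : Subgroup G) → T' = T := by
    intro T' hT'
    have h1 : c ∈ ((g⁻¹ • T' : Sylow 2 G) : Subgroup G) := by
      rw [mem_smul_sylow, inv_inv, ← ht]
      exact hT'
    have h2 := h.fix_c _ h1
    rw [← hg, ← h2, smul_inv_smul]
  have hv2 : v ^ 2 = 1 := by rw [pow_two]; exact sq_eq_one hv.2.1
  have hv3 : v * v = 1 := sq_eq_one hv.2.1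
  have ht3 : t * t = 1 := by rw [← pow_two]; exact ht2
  obtain ⟨ρ, hρ⟩ : ∃ ρ, ρ = v * t := ⟨_, rfl⟩
  have hvi : v⁻¹ = v := inv_eq_of_mul_eq_one_left hv3
  have hti : t⁻¹ = t := inv_eq_of_mul_eq_one_left ht3
  have hρinv : ρ⁻¹ = t * v := by rw [hρ, mul_inv_rev, hvi, hti]
  have hvρ : v * ρ * v⁻¹ = ρ⁻¹ := by
    rw [hρinv, hρ, hvi, ← mul_assoc, hv3, one_mul]
  have htρ : t * ρ * t⁻¹ = ρ⁻¹ := by
    rw [hρinv, hρ, hti]
    calc t * (v * t) * t = t * v * (t * t) := by group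
      _ = t * v := by rw [ht3, mul_one]
  -- the odd case is impossible
  have hnotodd : ¬ Odd (orderOf ρ) := by
    intro hodd
    obtain ⟨d, -, hd⟩ := Cfsg.Agent.Lib.Involutions.Dihedral.exists_conj_of_odd hv2 ht2
      (by rw [← hρ]; exact hodd)
    have h1 : (d⁻¹ * g) * c * (d⁻¹ * g)⁻¹ = v := by
      have e : (d⁻¹ * g) * c * (d⁻¹ * g)⁻¹ = d⁻¹ * t * d := by rw [ht]; group
      rw [e, ← hd]; group
    have h2 : (d⁻¹ * g) * c * (d⁻¹ * g)⁻¹ ∈ (S : Subgroup G) := by rw [h1]; exact hv.1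
    obtain ⟨s, hs, hsc⟩ := h.conj_to_S h2
    rw [h1] at hsc
    have h3 : c = v := by
      have h4 : c = s⁻¹ * (s * c * s⁻¹) * s := by group
      rw [h4, hsc]
      have h5 := hv.2.2 s⁻¹ (inv_mem hs)
      rw [h5]; group
    exact h.c_ne_inv hv h3
  obtain ⟨a, b, hb, hab⟩ := Nat.exists_eq_two_pow_mul_odd (orderOf_pos ρ).ne'
  obtain ⟨w, hw⟩ : ∃ w, w = ρ ^ b := ⟨_, rfl⟩
  have hwa : w ^ (2 ^ a) = 1 := by
    rw [hw, ← pow_mul, mul_comm, ← hab, pow_orderOf_eq_one]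
  have hvw : v * w * v⁻¹ = w⁻¹ := by rw [hw, ← conj_pow, hvρ, inv_pow]
  have htw : t * w * t⁻¹ = w⁻¹ := by rw [hw, ← conj_pow, htρ, inv_pow]
  obtain ⟨T₁, hT₁v, hT₁w⟩ := exists_sylow_of_inverts hv2 hwa hvw
  have hT₁ := h.fix_u hv T₁ hT₁v
  rw [hT₁] at hT₁w
  obtain ⟨T₂, hT₂t, hT₂w⟩ := exists_sylow_of_inverts ht2 hwa htw
  have hT₂ := hfixt T₂ hT₂t
  rw [hT₂] at hT₂w
  have hwv : w * v = v * w := hv.2.2 w hT₁w
  have hww : w * w = 1 := by
    have h1 : v * w * v⁻¹ = w := by rw [← hwv]; group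
    rw [hvw] at h1
    have h2 : w⁻¹ * w = 1 := by group
    rwa [h1] at h2
  have hwi : w⁻¹ = w := inv_eq_of_mul_eq_one_left hww
  have hwt : t * w = w * t := by
    calc t * w = (t * w * t⁻¹) * t := by group
      _ = w * t := by rw [htw, hwi]
  have hw2b : ρ ^ (2 * b) = 1 := by
    rw [mul_comm, pow_mul, ← hw, pow_two, hww]
  have hdvd : orderOf ρ ∣ 2 * b := orderOf_dvd_of_pow_eq_one hw2b
  have ha1 : a ≠ 0 := by
    rintro rfl
    apply hnotodd
    rw [hab, pow_zero, one_mul]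
    exact hb
  have hw1 : w ≠ 1 := by
    intro hw1
    have h1 : orderOf ρ ∣ b := orderOf_dvd_of_pow_eq_one (by rw [← hw]; exact hw1)
    rw [hab] at h1
    have h2 : 2 ∣ b := dvd_trans (dvd_mul_of_dvd_left (dvd_pow_self 2 ha1) b) h1
    rw [Nat.odd_iff] at hb
    omega
  have hwo : orderOf w = 2 := orderOf_eq_prime (by rw [pow_two]; exact hww) hw1
  refine ⟨w, hT₁w, hT₂w, hwo, ?_⟩
  -- `v w` and `t` have product of odd order
  have hodd : Odd (orderOf (v * w * t)) := by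
    have e : v * w * t = w * ρ := by
      rw [hρ, ← hwv]; group
    have h1 : (v * w * t) ^ b = 1 := by
      have hcomm : Commute w ρ := by rw [hw]; exact (Commute.refl ρ).pow_left b
      rw [e, hcomm.mul_pow, ← hw]
      have h2 : w ^ b = w := by
        obtain ⟨n, rfl⟩ := hb
        rw [pow_succ, pow_mul, pow_two, hww, one_pow, one_mul]
      rw [h2, hww]
    exact Odd.of_dvd_nat hb (orderOf_dvd_of_pow_eq_one h1)
  have hvw2 : (v * w) ^ 2 = 1 := by
    rw [pow_two]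
    calc v * w * (v * w) = v * (w * v) * w := by group
      _ = v * (v * w) * w := by rw [hwv]
      _ = (v * v) * (w * w) := by group
      _ = 1 := by rw [hv3, hww, one_mul]
  obtain ⟨d, -, hd⟩ := Cfsg.Agent.Lib.Involutions.Dihedral.exists_conj_of_odd hvw2 ht2 hodd
  have h1 : (d⁻¹ * g) * c * (d⁻¹ * g)⁻¹ = v * w := by
    have e : (d⁻¹ * g) * c * (d⁻¹ * g)⁻¹ = d⁻¹ * t * d := by rw [ht]; group
    rw [e, ← hd]; group
  have h2 : (d⁻¹ * g) * c * (d⁻¹ * g)⁻¹ ∈ (S : Subgroup G) := by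
    rw [h1]; exact mul_mem hv.1 hT₁w
  obtain ⟨s, hs, hsc⟩ := h.conj_to_S h2
  exact ⟨s, hs, hsc.trans h1⟩

/-- **The contradiction.** -/
theorem D.false (h : D C S H x c) : False := by
  classical
  haveI : Fact (Nat.Prime 2) := ⟨Nat.prime_two⟩
  obtain ⟨T, hTS⟩ := h.crit.exists_ne S
  obtain ⟨g, hg⟩ := MulAction.exists_smul_eq G S T
  obtain ⟨u, hu⟩ := h.exists_inv
  obtain ⟨u', hu', hne⟩ := h.exists_other hu
  have huu' : Inv S (u' * u) := Inv.mul hu hu' hne
  obtain ⟨e₁, he₁S, he₁T, he₁o, s₃, hs₃, hs₃c⟩ := h.key hTS hg hu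
  obtain ⟨e₂, he₂S, he₂T, he₂o, s₁, hs₁, hs₁c⟩ := h.key hTS hg hu'
  obtain ⟨e₃, he₃S, he₃T, he₃o, s₂, hs₂, hs₂c⟩ := h.key hTS hg huu'
  haveI := h.crit.hyp.cyc S T (Ne.symm hTS)
  have he12 : e₁ = e₂ := by
    have := Cfsg.Agent.Lib.ZStar.CI.eq_of_cyclic
      (X := ↥((S : Subgroup G) ⊓ (T : Subgroup G)))
      (a := ⟨e₁, Subgroup.mem_inf.2 ⟨he₁S, he₁T⟩⟩) (b := ⟨e₂, Subgroup.mem_inf.2 ⟨he₂S, he₂T⟩⟩)
      (by rw [Subgroup.orderOf_mk]; exact he₁o) (by rw [Subgroup.orderOf_mk]; exact he₂o)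
    exact congrArg Subtype.val this
  have he13 : e₁ = e₃ := by
    have := Cfsg.Agent.Lib.ZStar.CI.eq_of_cyclic
      (X := ↥((S : Subgroup G) ⊓ (T : Subgroup G)))
      (a := ⟨e₁, Subgroup.mem_inf.2 ⟨he₁S, he₁T⟩⟩) (b := ⟨e₃, Subgroup.mem_inf.2 ⟨he₃S, he₃T⟩⟩)
      (by rw [Subgroup.orderOf_mk]; exact he₁o) (by rw [Subgroup.orderOf_mk]; exact he₃o)
    exact congrArg Subtype.val this
  rw [← he12] at hs₁c
  rw [← he13] at hs₂c
  -- `s = s₂ s₁⁻¹` conjugates `u' e` to `u' u e`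
  obtain ⟨e, he⟩ : ∃ e, e = e₁ := ⟨_, rfl⟩
  rw [← he] at hs₁c hs₂c hs₃c he₁T
  obtain ⟨s, hs⟩ : ∃ s, s = s₂ * s₁⁻¹ := ⟨_, rfl⟩
  have hsS : s ∈ (S : Subgroup G) := by rw [hs]; exact mul_mem hs₂ (inv_mem hs₁)
  have h1 : s * (u' * e) * s⁻¹ = u' * u * e := by
    rw [← hs₁c, ← hs₂c, hs]; group
  have h2 : s * (u' * e) * s⁻¹ = u' * (s * e * s⁻¹) := by
    calc s * (u' * e) * s⁻¹ = (s * u') * e * s⁻¹ := by group
      _ = (u' * s) * e * s⁻¹ := by rw [hu'.2.2 s hsS]
      _ = u' * (s * e * s⁻¹) := by group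
  have h3 : s * e * s⁻¹ = u * e := by
    have h4 : u' * (s * e * s⁻¹) = u' * (u * e) := by
      rw [← h2, h1]; group
    exact mul_left_cancel h4
  -- hence `e` is conjugate to `c`
  obtain ⟨r, hr⟩ : ∃ r, r = s⁻¹ * s₃ := ⟨_, rfl⟩
  have hrS : r ∈ (S : Subgroup G) := by rw [hr]; exact mul_mem (inv_mem hsS) hs₃
  have h5 : r * c * r⁻¹ = e := by
    have e1 : r * c * r⁻¹ = s⁻¹ * (s₃ * c * s₃⁻¹) * s := by rw [hr]; group
    rw [e1, hs₃c, ← h3]; group
  have h6 : c ∈ ((r⁻¹ • T : Sylow 2 G) : Subgroup G) := by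
    rw [mem_smul_sylow, inv_inv, h5]
    exact he₁T
  have h7 := h.fix_c _ h6
  have h8 : T = r • S := by rw [← h7, smul_inv_smul]
  have h9 : r • S = S := by
    rw [Sylow.smul_eq_iff_mem_normalizer]
    exact Subgroup.le_normalizer hrS
  exact hTS (h8.trans h9)

/-- A minimal counterexample does not exist. -/
theorem Crit.false (h : Crit C) : False := by
  classical
  haveI : Fact (Nat.Prime 2) := ⟨Nat.prime_two⟩
  obtain ⟨S⟩ : Nonempty (Sylow 2 G) := inferInstance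
  obtain ⟨H, hHodd, hHS, hdec⟩ := exists_complement S
  obtain ⟨x, hxS, hxC, hxH⟩ := h.exists_fixed S hHodd hHS
  obtain ⟨k, hk⟩ := (IsPGroup.iff_orderOf.1 S.2) ⟨x, hxS⟩
  have hxk : orderOf x = 2 ^ k := by simpa using hk
  have hx1 : x ≠ 1 := fun hx => hxC (by rw [hx]; exact C.one_mem)
  have hk0 : k ≠ 0 := by
    rintro rfl
    apply hx1
    rw [pow_zero] at hxk
    exact orderOf_eq_one_iff.1 hxk
  obtain ⟨j, rfl⟩ := Nat.exists_eq_succ_of_ne_zero hk0
  obtain ⟨c, hc⟩ : ∃ c, c = x ^ (2 ^ j) := ⟨_, rfl⟩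
  have hco : orderOf c = 2 := by
    have h1 := orderOf_pow_orderOf_div (x := x) (n := 2) (by rw [hxk]; simp) (by rw [hxk]; exact dvd_pow_self 2 (by omega))
    have h2 : orderOf x / 2 = 2 ^ j := by rw [hxk, Nat.succ_eq_add_one, pow_succ]; simp
    rw [h2] at h1
    rwa [hc]
  refine D.false (C := C) (S := S) (H := H) (x := x) (c := c) ⟨h, hHS, hdec, hxS, hxC,
    by rw [hc]; exact pow_mem hxS _, hco, ?_, ?_⟩
  · rw [hc]; exact ((Commute.refl x).pow_left _).eq
  · intro t ht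
    rw [hc]
    exact ((show Commute t x from hxH t ht).pow_right _).eq

end

/-- **Main theorem.** If `G/C` is a non-trivial `2`-group, Sylow `2`-subgroups meet cyclically and every
`2`-element outside `C` lies in a unique Sylow `2`-subgroup, then `G` is solvable. -/
theorem solvable_of_hyp (ft : FT.{u}) : ∀ (n : ℕ) (G : Type u) [Group G] [Finite G], Nat.card G = n →
    ∀ (C : Subgroup G), C.Normal → Hyp C → Group.IsSolvable G := by
  intro n
  induction n using Nat.strong_induction_on with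
  | _ n ih =>
  intro G _ _ hn C hCn hyp
  by_contra hns
  refine Crit.false (C := C) ⟨hyp, hCn, hns, ?_, ?_, ft⟩
  · intro H hH hHC
    have hlt : Nat.card H < n := by
      rw [← hn]
      exact Cfsg.Agent.Lib.ZStar.Main.card_lt_of_ne hH
    exact ih _ hlt H rfl (C.subgroupOf H) (Subgroup.normal_subgroupOf) (hyp.sub H hHC)
  · intro Y hYn hYC hYs
    by_contra hY
    haveI := hYn
    have hlt : Nat.card (G ⧸ Y) < n := by
      rw [← hn]
      have h1 := Subgroup.card_eq_card_quotient_mul_card_subgroup Y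
      have h2 : 1 < Nat.card Y := by
        haveI : Nontrivial Y := (Subgroup.nontrivial_iff_ne_bot Y).2 hY
        exact Finite.one_lt_card
      have h3 : 0 < Nat.card (G ⧸ Y) := Nat.card_pos
      nlinarith
    have hq := ih _ hlt (G ⧸ Y) rfl (C.map (QuotientGroup.mk' Y))
      (hCn.map _ (QuotientGroup.mk'_surjective Y)) (hyp.quot Y hYC)
    exact hns (solvable_of_normal_quotient Y hYs hq)

end Cfsg.Agent.Lib.CycSyl
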