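import Mathlib
import Cfsg.Agent.Lib.CycSyl.Final
import Cfsg.Agent.Lib.Solvable.Fitting
import Cfsg.Agent.Lib.InvolChar.Cyclic2

/-!
# The solvable radical of a group whose Sylow `2`-subgroups meet cyclically
-/

set_option autoImplicit false
set_option linter.unusedSectionVars false
set_option linter.style.haveILetI false

namespace Cfsg.Agent.Lib.CycSyl

open Subgroup Cfsg Cfsg.Agent.Lib.InvolChar.Cyclic2

universe u

variable {G : Type u} [Group G] [Finite G]

/-- With `O(G) = 1`, a solvable normal subgroup is a cyclic central `2`-group. -/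
theorem radical_central (ft : FT.{u}) (hO : pPrimeCore 2 G = ⊥) (hc : CycInt G)
    (hns : ¬ Group.IsSolvable G) (N : Subgroup G) [N.Normal] (hN : Group.IsSolvable N) :
    IsCyclic N ∧ IsPGroup 2 N ∧ N ≤ center G := by
  classical
  haveI : Fact (Nat.Prime 2) := ⟨Nat.prime_two⟩
  haveI := hN
  have hsub : N.IsSubnormal := Subgroup.Normal.isSubnormal inferInstance
  -- two distinct Sylow subgroups
  obtain ⟨S⟩ : Nonempty (Sylow 2 G) := inferInstance
  obtain ⟨T, hTS⟩ : ∃ T : Sylow 2 G, T ≠ S := by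
    by_contra hcon
    push Not at hcon
    haveI : Subsingleton (Sylow 2 G) := ⟨fun a b => (hcon a).trans (hcon b).symm⟩
    exact hns (solvable_of_normal_sylow ft S (Sylow.normal_of_subsingleton S))
  -- `O(N) = 1`
  have hbot : pPrimeCore 2 N = ⊥ := by
    have h1 := Cfsg.Agent.Lib.Core.Basic.map_pPrimeCore_le_of_isSubnormal (p := 2) hsub
    rw [hO, le_bot_iff] at h1
    exact (Subgroup.map_eq_bot_iff_of_injective _ N.subtype_injective).1 h1
  have hcent := Cfsg.Agent.Lib.Solvable.Fitting.centralizer_pCore_le (G := N) 2 hbot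
  set Q := pCore 2 N with hQ
  have hQp : IsPGroup 2 Q := Cfsg.Agent.Lib.Core.Basic.pCore_isPGroup
  have hQle : Q.map N.subtype ≤ (T : Subgroup G) ⊓ (S : Subgroup G) := by
    have h1 := Cfsg.Agent.Lib.Core.Basic.map_pCore_le_of_isSubnormal (p := 2) hsub
    exact le_inf (h1.trans (Cfsg.Agent.Lib.Core.Basic.pCore_le_sylow T))
      (h1.trans (Cfsg.Agent.Lib.Core.Basic.pCore_le_sylow S))
  haveI hcST := hc T S hTS
  have hQc : IsCyclic Q := by
    let f : Q →* ↥((T : Subgroup G) ⊓ (S : Subgroup G)) :=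
      (N.subtype.comp Q.subtype).codRestrict _ (fun q => hQle ⟨q, q.2, rfl⟩)
    refine isCyclic_of_injective f ?_
    intro a b hab
    have := congrArg Subtype.val hab
    exact Subtype.ext (Subtype.ext this)
  obtain ⟨⟨c, hcQ⟩, hcgen⟩ := IsCyclic.exists_generator (α := Q)
  have hQz : Q = Subgroup.zpowers c := by
    apply le_antisymm
    · intro y hy
      obtain ⟨i, hi⟩ := hcgen ⟨y, hy⟩
      exact ⟨i, by simpa using congrArg Subtype.val hi⟩
    · rw [Subgroup.zpowers_le]
      exact hcQ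
  obtain ⟨n, hn⟩ : ∃ n, orderOf c = 2 ^ n := by
    have := (IsPGroup.iff_orderOf.1 hQp) ⟨c, hcQ⟩
    simpa using this
  have hQn : Q.Normal := inferInstance
  have hodd : ∀ x : N, Odd (orderOf x) → x = 1 := by
    intro x hx
    have h1 : x * c * x⁻¹ ∈ Subgroup.zpowers c := by
      rw [← hQz]
      exact hQn.conj_mem c hcQ x
    have h2 : x ^ orderOf x * c = c * x ^ orderOf x := by
      rw [pow_orderOf_eq_one]; group
    have h3 := commute_of_odd_of_normalizes_cyclic hn h1 hx h2
    have h4 : x ∈ Q := by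
      apply hcent
      rw [Subgroup.mem_centralizer_iff]
      intro y hy
      rw [SetLike.mem_coe, hQz] at hy
      obtain ⟨i, rfl⟩ := Subgroup.mem_zpowers_iff.1 hy
      exact ((show Commute c x from h3.symm).zpow_left i).eq
    exact eq_one_of_odd_of_mem hQp h4 hx
  have htwo : IsPGroup 2 N := isPGroup_two_of_odd hodd
  have hNle : N ≤ (T : Subgroup G) ⊓ (S : Subgroup G) :=
    le_inf ((Cfsg.Agent.Lib.Core.Basic.le_pCore inferInstance htwo).trans
        (Cfsg.Agent.Lib.Core.Basic.pCore_le_sylow T))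
      ((Cfsg.Agent.Lib.Core.Basic.le_pCore inferInstance htwo).trans
        (Cfsg.Agent.Lib.Core.Basic.pCore_le_sylow S))
  have hNc : IsCyclic N :=
    isCyclic_of_injective (Subgroup.inclusion hNle) (Subgroup.inclusion_injective hNle)
  refine ⟨hNc, htwo, ?_⟩
  -- centrality
  set C : Subgroup G := centralizer (N : Set G) with hC
  have hCn : C.Normal := by rw [hC]; infer_instance
  by_cases htop : C = ⊤
  · intro x hx
    rw [Subgroup.mem_center_iff]
    intro g
    have hg : g ∈ C := by rw [htop]; trivial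
    exact (Subgroup.mem_centralizer_iff.1 hg x hx).symm
  · exfalso
    apply hns
    refine solvable_of_hyp ft _ G rfl C hCn ⟨?_, hc, ?_, htop⟩
    · intro g
      have hAut := isPGroup_mulAut htwo
      obtain ⟨k, hk⟩ := hAut (MulAut.conjNormal g)
      refine ⟨k, ?_⟩
      rw [hC, Subgroup.mem_centralizer_iff]
      intro a ha
      have h1 := DFunLike.congr_fun hk ⟨a, ha⟩
      rw [← map_pow, MulAut.one_apply] at h1
      have h2 := congrArg Subtype.val h1
      rw [MulAut.conjNormal_apply] at h2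
      calc a * g ^ 2 ^ k = (g ^ 2 ^ k * a * (g ^ 2 ^ k)⁻¹) * g ^ 2 ^ k := by rw [h2]
        _ = g ^ 2 ^ k * a := by group
    · intro y hy _ S' T' hyS hyT
      by_contra hne
      apply hy
      haveI hcyc := hc S' T' hne
      have hNle' : N ≤ (S' : Subgroup G) ⊓ (T' : Subgroup G) :=
        le_inf ((Cfsg.Agent.Lib.Core.Basic.le_pCore inferInstance htwo).trans
            (Cfsg.Agent.Lib.Core.Basic.pCore_le_sylow S'))
          ((Cfsg.Agent.Lib.Core.Basic.le_pCore inferInstance htwo).trans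
            (Cfsg.Agent.Lib.Core.Basic.pCore_le_sylow T'))
      rw [hC, Subgroup.mem_centralizer_iff]
      intro a ha
      haveI : IsMulCommutative ↥((S' : Subgroup G) ⊓ (T' : Subgroup G)) := by
        constructor
        constructor
        exact hcyc.commGroup.mul_comm
      have h1 : (⟨a, hNle' ha⟩ : ↥((S' : Subgroup G) ⊓ (T' : Subgroup G))) *
          ⟨y, Subgroup.mem_inf.2 ⟨hyS, hyT⟩⟩ = ⟨y, Subgroup.mem_inf.2 ⟨hyS, hyT⟩⟩ * ⟨a, hNle' ha⟩ :=
        mul_comm' _ _
      exact congrArg Subtype.val h1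

/-- The statement of `S3306`, given the Feit–Thompson theorem. -/
theorem main_of_ft (ft : FT.{u}) (hns : ¬ Group.IsSolvable G) (hC : CycInt G) (N : Subgroup G) [N.Normal]
    (hN : Group.IsSolvable N) :
    IsCyclic ↥(N.map (QuotientGroup.mk' (Cfsg.oddCore G))) ∧
      IsPGroup 2 ↥(N.map (QuotientGroup.mk' (Cfsg.oddCore G))) ∧
      N.map (QuotientGroup.mk' (Cfsg.oddCore G)) ≤ Subgroup.center (G ⧸ Cfsg.oddCore G) := by
  classical
  have hO : pPrimeCore 2 (G ⧸ Cfsg.oddCore G) = ⊥ := Cfsg.Agent.Lib.Core.Basic.pPrimeCore_quotient_eq_bot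
  have hcq : CycInt (G ⧸ Cfsg.oddCore G) := Cfsg.Agent.S3305.result hC (Cfsg.oddCore G)
  have hnsq : ¬ Group.IsSolvable (G ⧸ Cfsg.oddCore G) := by
    intro hq
    apply hns
    exact solvable_of_normal_quotient (Cfsg.oddCore G) (ft _ Cfsg.Agent.Lib.ZStar.Cor.odd_card_core) hq
  have hNq : Group.IsSolvable ↥(N.map (QuotientGroup.mk' (Cfsg.oddCore G))) :=
    Group.isSolvable_of_surjective
      ((QuotientGroup.mk' (Cfsg.oddCore G)).subgroupMap_surjective N)
  haveI : (N.map (QuotientGroup.mk' (Cfsg.oddCore G))).Normal :=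
    Subgroup.Normal.map inferInstance _ (QuotientGroup.mk'_surjective _)
  exact radical_central ft hO hcq hnsq _ hNq

end Cfsg.Agent.Lib.CycSyl
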